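import Cfsg.Agent.H103.Tor.SLTwo

/-!
# S3235: groups of `N`-transpositions (helper339)

`t` an involution all of whose products `t tᵍ` have order at most `N < p`. If `Pr p A` and `t` does not centralise `A` then
`A`, `Aᵗ` generate an `SLT` in which `t` exchanges `u x` and `l y`, and the product `t t^(u kx) = l(ky) u(-kx)` has trace
`2 - k² xy`:

* `rec_pow` : `(M ^ n)₁₀ = q_n(tr M) M₁₀` for `det M = 1`;
* `exists_s` : there are a field `K` of characteristic `p` and `s ≠ 0` such that for all `k` prime to `p` some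
  `q_n(2 - k² s)`, `1 ≤ n ≤ N`, vanishes;
* `no_six` (`p ≥ 13`, `N = 6`), `no_four` (`p ≥ 11`, `N = 4`), `no_three` (`p ≥ 7`, `N = 3`) : this is impossible.
-/

set_option autoImplicit false

namespace Cfsg.Agent.H339.Tor

open Subgroup Matrix
open Cfsg.Agent.H103.Tor
open Cfsg.Agent.H333.SLTwoLine (Ker1 u l u_mul u_inv u_pow l_pow l_inv l_mul u_coe l_coe)

/-- the Chebyshev values -/
def q {K : Type*} [Field K] (τ : K) : ℕ → K
  | 0 => 0
  | 1 => 1
  | n + 2 => τ * q τ (n + 1) - q τ n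

theorem rec_pow {K : Type*} [Field K] (M : Matrix (Fin 2) (Fin 2) K) (hM : M 0 0 * M 1 1 - M 0 1 * M 1 0 = 1) (n : ℕ) :
    (M ^ n) 1 0 = q (M 0 0 + M 1 1) n * M 1 0 ∧
      (M ^ (n + 1)) 1 0 = q (M 0 0 + M 1 1) (n + 1) * M 1 0 := by
  have h2 : M * M = (M 0 0 + M 1 1) • M - 1 := by
    ext i j
    fin_cases i <;> fin_cases j <;> simp [Matrix.mul_apply, Fin.sum_univ_two]
    · linear_combination (-1 : K) * hM
    · ring
    · ring
    · linear_combination (-1 : K) * hM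
  induction n with
  | zero => exact ⟨by simp [q], by simp [q]⟩
  | succ n ih =>
    refine ⟨ih.2, ?_⟩
    have h3 : M ^ (n + 1 + 1) = (M 0 0 + M 1 1) • M ^ (n + 1) - M ^ n := by
      rw [pow_succ (n := n + 1), pow_succ, mul_assoc, h2, mul_sub, mul_one, mul_smul_comm]
    rw [h3, Matrix.sub_apply, Matrix.smul_apply, ih.1, ih.2, q, smul_eq_mul]
    ring

/-- the product `l a · u b` -/
theorem lu_pow {K : Type*} [Field K] {a b : K} (ha : a ≠ 0) {n : ℕ}
    (h : (l a * u b) ^ n = 1 ∨ (l a * u b) ^ n = -1) : q (2 + a * b) n = 0 := by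
  have hc : (l a * u b).1 = !![1, b; a, 1 + a * b] := by
    show !![1, 0; a, 1] * !![1, b; 0, 1] = !![1, b; a, 1 + a * b]
    ext i j
    fin_cases i <;> fin_cases j <;> simp [Matrix.mul_apply, Fin.sum_univ_two] <;> ring
  have h1 := (rec_pow (!![1, b; a, 1 + a * b] : Matrix (Fin 2) (Fin 2) K) (by simp; ring) n).1
  have h2 : ((!![1, b; a, 1 + a * b] : Matrix (Fin 2) (Fin 2) K) ^ n) 1 0 = 0 := by
    have e0 : ∀ (g : SpecialLinearGroup (Fin 2) K) (m : ℕ), (g ^ m).1 = g.1 ^ m := by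
      intro g m
      induction m with
      | zero => rfl
      | succ m ih =>
        rw [pow_succ, pow_succ, ← ih]
        rfl
    have e1 := e0 (l a * u b) n
    rw [← hc, ← e1]
    rcases h with h | h
    · rw [h]
      show (1 : Matrix (Fin 2) (Fin 2) K) 1 0 = 0
      simp
    · rw [h]
      show (-1 : Matrix (Fin 2) (Fin 2) K) 1 0 = 0
      simp
  rw [h2] at h1
  have e : (!![1, b; a, 1 + a * b] : Matrix (Fin 2) (Fin 2) K) 0 0 + (!![1, b; a, 1 + a * b] : Matrix (Fin 2) (Fin 2) K) 1 1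
      = 2 + a * b := by
    simp
    ring
  rw [e] at h1
  have h3 : (!![1, b; a, 1 + a * b] : Matrix (Fin 2) (Fin 2) K) 1 0 = a := by simp
  rw [h3] at h1
  exact (mul_eq_zero.1 h1.symm).resolve_right ha

variable {G : Type*} [Group G]

/-- `t` does not commute with `A`: then `A` and `tAt⁻¹` do not commute -/
theorem not_cm {p N : ℕ} (hp : p.Prime) (hp2 : p ≠ 2) (hNp : N < p) {A : Subgroup G} (hA : Nat.card A = p) {t : G}
    (ht : t * t = 1) (hN : ∀ g : G, ∃ n : ℕ, 0 < n ∧ n ≤ N ∧ (t * (g * t * g⁻¹)) ^ n = 1)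
    (hc : ¬ A ≤ centralizer ({t} : Set G)) : ¬ Cm A (cj t A) := by
  intro hcm
  apply hc
  have ht' : t⁻¹ = t := inv_eq_of_mul_eq_one_right ht
  have hpw : ∀ a ∈ A, a ^ p = 1 := by
    intro a ha
    have h1 : (⟨a, ha⟩ : A) ^ Nat.card A = 1 := pow_card_eq_one'
    rw [hA] at h1
    exact congrArg Subtype.val h1
  intro a ha
  rw [mem_centralizer_singleton_iff]
  obtain ⟨a', ha'⟩ : ∃ a', a' = t * a * t⁻¹ := ⟨_, rfl⟩
  have h1 : a' ∈ cj t A := by rw [ha']; exact conj_mem_cj ha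
  have hcomm : Commute a a' := hcm a ha a' h1
  obtain ⟨b, hb⟩ : ∃ b, b = a * a'⁻¹ := ⟨_, rfl⟩
  have hbp : b ^ p = 1 := by
    rw [hb, hcomm.inv_right.mul_pow, inv_pow, hpw a ha, ha', conj_pow, hpw a ha]
    group
  have htb : t * b * t = b⁻¹ := by
    have e1 : t * a' * t⁻¹ = a := by
      rw [ha']
      calc t * (t * a * t⁻¹) * t⁻¹ = (t * t) * a * (t * t)⁻¹ := by group
        _ = a := by rw [ht]; group
    calc t * b * t = t * (a * a'⁻¹) * t⁻¹ := by rw [hb, ht']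
      _ = (t * a * t⁻¹) * (t * a' * t⁻¹)⁻¹ := by group
      _ = a' * a⁻¹ := by rw [e1, ← ha']
      _ = b⁻¹ := by rw [hb]; group
  obtain ⟨n, hn0, hn, h2⟩ := hN b
  have h3 : t * (b * t * b⁻¹) = (b ^ 2)⁻¹ := by
    calc t * (b * t * b⁻¹) = (t * b * t) * b⁻¹ := by group
      _ = b⁻¹ * b⁻¹ := by rw [htb]
      _ = (b ^ 2)⁻¹ := by rw [pow_two]; group
  rw [h3, inv_pow, inv_eq_one, ← pow_mul] at h2
  have h4 : orderOf b ∣ Nat.gcd (2 * n) p := Nat.dvd_gcd (orderOf_dvd_of_pow_eq_one h2) (orderOf_dvd_of_pow_eq_one hbp)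
  have h5 : Nat.gcd (2 * n) p = 1 := by
    refine Nat.Coprime.mul_left ?_ ?_
    · exact (Nat.coprime_primes Nat.prime_two hp).2 (Ne.symm hp2)
    · exact (Nat.Coprime.symm ((Nat.Prime.coprime_iff_not_dvd hp).2 fun h => by
        have := Nat.le_of_dvd hn0 h
        omega))
  rw [h5, Nat.dvd_one, orderOf_eq_one_iff] at h4
  have h6 : a = a' := by
    rw [h4] at hb
    exact (mul_inv_eq_one.1 hb.symm)
  rw [ha'] at h6
  calc a * t = (t * a * t⁻¹) * t := by rw [← h6]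
    _ = t * a := by group

/-- **the reduction to the traces** -/
theorem exists_s {p N : ℕ} (hp : p.Prime) (hp5 : 5 ≤ p) (hNp : N < p) {A : Subgroup G} (hA : Pr p A) {t : G}
    (ht : t * t = 1) (hN : ∀ g : G, ∃ n : ℕ, 0 < n ∧ n ≤ N ∧ (t * (g * t * g⁻¹)) ^ n = 1)
    (hc : ¬ A ≤ centralizer ({t} : Set G)) :
    ∃ (K : Type) (_ : Field K) (_ : CharP K p) (s : K), s ≠ 0 ∧
      ∀ k : ℕ, ¬ p ∣ k → ∃ n : ℕ, 0 < n ∧ n ≤ N ∧ q (2 - (k : K) ^ 2 * s) n = 0 := by
  have ht' : t⁻¹ = t := inv_eq_of_mul_eq_one_right ht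
  have hnc := not_cm hp (by omega) hNp hA.card ht hN hc
  have hS := (hA.pair t).resolve_left hnc
  obtain ⟨K, _, _, _, m, φ, x, y, hm, hK, hφ, hX, hx, hy, hAx, hBy⟩ := exists_pair hp hp5 hA.card
    (by rw [card_cj]; exact hA.card) hS hnc
  have h1 : t * φ (u x) * t⁻¹ ∈ cj t A := conj_mem_cj (by rw [hAx]; exact mem_zpowers _)
  rw [hBy] at h1
  obtain ⟨j, hj⟩ := mem_zpowers_iff.1 h1
  have hlz : ∀ (y : K) (j : ℤ), l y ^ j = l ((j : K) * y) := by
    intro y j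
    obtain ⟨n, rfl | rfl⟩ := j.eq_nat_or_neg
    · rw [zpow_natCast, l_pow]; push_cast; rfl
    · rw [_root_.zpow_neg, zpow_natCast, l_pow, l_inv]; push_cast; congr 1; ring
  rw [← map_zpow, hlz] at hj
  obtain ⟨z, hz⟩ : ∃ z : K, z = (j : K) * y := ⟨_, rfl⟩
  rw [← hz] at hj
  have h20 : (2 : K) ≠ 0 := two_ne hp hp5
  have hz0 : z ≠ 0 := by
    rintro rfl
    have h2 : φ (u x) = 1 := by
      have h3 : φ (l (0 : K)) = 1 := by
        have h4 : (l (0 : K)) = 1 := by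
          apply Subtype.ext
          ext i j
          fin_cases i <;> fin_cases j <;> simp
        rw [h4, map_one]
      rw [h3] at hj
      calc φ (u x) = t⁻¹ * (t * φ (u x) * t⁻¹) * t := by group
        _ = 1 := by rw [← hj]; group
    rcases hφ _ h2 with h3 | h3
    · have h4 := congrArg (fun M : SpecialLinearGroup (Fin 2) K => (M : Matrix (Fin 2) (Fin 2) K) 0 1) h3
      simp at h4
      exact hx h4
    · have h4 := congrArg (fun M : SpecialLinearGroup (Fin 2) K => (M : Matrix (Fin 2) (Fin 2) K) 0 0) h3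
      simp at h4
      have h5 : (2 : K) = 0 := by linear_combination h4
      exact h20 h5
  refine ⟨K, inferInstance, inferInstance, x * z, mul_ne_zero hx hz0, fun k hk => ?_⟩
  have hk0 : (k : K) ≠ 0 := fun h0 => hk ((CharP.cast_eq_zero_iff K p k).1 h0)
  obtain ⟨n, hn0, hn, h2⟩ := hN (φ (u x) ^ k)
  refine ⟨n, hn0, hn, ?_⟩
  have h3 : t * (φ (u x) ^ k * t * (φ (u x) ^ k)⁻¹) = φ (l ((k : K) * z) * u (-((k : K) * x))) := by
    have e1 : t * φ (u x) ^ k * t⁻¹ = φ (l ((k : K) * z)) := by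
      rw [← conj_pow, ← hj, ← map_pow, l_pow]
    calc t * (φ (u x) ^ k * t * (φ (u x) ^ k)⁻¹) = t * φ (u x) ^ k * t⁻¹ * (φ (u x) ^ k)⁻¹ := by rw [ht']; group
      _ = φ (l ((k : K) * z)) * (φ (u x) ^ k)⁻¹ := by rw [e1]
      _ = _ := by rw [map_mul, ← map_pow, u_pow, ← map_inv, u_inv]
  rw [h3, ← map_pow] at h2
  have h4 := lu_pow (mul_ne_zero hk0 hz0) (hφ _ h2)
  have e : 2 + (k : K) * z * -((k : K) * x) = 2 - (k : K) ^ 2 * (x * z) := by ring
  rwa [e] at h4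

end Cfsg.Agent.H339.Tor
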