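import Cfsg.Agent.H339.Tor.Trans

/-!
# S3235: the numerical part for the transpositions (helper339)

The values `τ` with `q_n(τ) = 0` for some `1 ≤ n ≤ N` are roots of `F3`, `F4`, `F6` (`N = 3, 4, 6`) of degrees 3, 5, 11; the
values `2 - k² s`, `k < p / 2`, are different, and for the small `p` two of the polynomials `F(2 - k² s)` have a common
divisor of degree at most 1.

* `no_three` (`p ≥ 7`), `no_four` (`p ≥ 11`), `no_six` (`p ≥ 13`)
-/

set_option autoImplicit false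

namespace Cfsg.Agent.H339.Tor

open Subgroup Cfsg.Agent.H103.Tor

def F3 {K : Type*} [Field K] (τ : K) : K := τ * (τ ^ 2 - 1)
def F4 {K : Type*} [Field K] (τ : K) : K := τ * (τ ^ 2 - 1) * (τ ^ 2 - 2)
def F6 {K : Type*} [Field K] (τ : K) : K := τ * (τ ^ 2 - 1) * (τ ^ 2 - 2) * (τ ^ 4 - 3 * τ ^ 2 + 1) * (τ ^ 2 - 3)

section

variable {K : Type*} [Field K] {τ : K} {n : ℕ}

theorem q2 (τ : K) : q τ 2 = τ := by simp [q]
theorem q3 (τ : K) : q τ 3 = τ ^ 2 - 1 := by simp [q]; ring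
theorem q4 (τ : K) : q τ 4 = τ * (τ ^ 2 - 2) := by simp [q]; ring
theorem q5 (τ : K) : q τ 5 = τ ^ 4 - 3 * τ ^ 2 + 1 := by simp [q]; ring
theorem q6 (τ : K) : q τ 6 = τ * (τ ^ 2 - 1) * (τ ^ 2 - 3) := by simp [q]; ring

theorem F3_of (h0 : 0 < n) (hn : n ≤ 3) (h : q τ n = 0) : F3 τ = 0 := by
  unfold F3
  interval_cases n
  · simp [q] at h
  · rw [q2] at h; rw [h, zero_mul]
  · rw [q3] at h; rw [h, mul_zero]

theorem F4_of (h0 : 0 < n) (hn : n ≤ 4) (h : q τ n = 0) : F4 τ = 0 := by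
  unfold F4
  interval_cases n
  · simp [q] at h
  · rw [q2] at h; rw [h]; ring
  · rw [q3] at h; rw [h]; ring
  · rw [q4] at h; linear_combination (τ ^ 2 - 1) * h

theorem F6_of (h0 : 0 < n) (hn : n ≤ 6) (h : q τ n = 0) : F6 τ = 0 := by
  unfold F6
  interval_cases n
  · simp [q] at h
  · rw [q2] at h; rw [h]; ring
  · rw [q3] at h; rw [h]; ring
  · rw [q4] at h; linear_combination ((τ ^ 2 - 1) * (τ ^ 4 - 3 * τ ^ 2 + 1) * (τ ^ 2 - 3)) * h
  · rw [q5] at h; rw [h]; ring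
  · rw [q6] at h; linear_combination ((τ ^ 2 - 2) * (τ ^ 4 - 3 * τ ^ 2 + 1)) * h

end

/-! ### large `p` -/

section

open Polynomial

/-- a polynomial of degree less than `r` -/
theorem false_of_roots {K : Type*} [Field K] {p : ℕ} [CharP K p] {s : K} (hs : s ≠ 0) (P : K[X])
    (hP : P ≠ 0) {r : ℕ} (hd : P.natDegree < r) (hr : 2 * r < p)
    (h : ∀ k ∈ Finset.Icc 1 r, P.eval (2 - (k : K) ^ 2 * s) = 0) : False := by
  classical
  have hinj : Set.InjOn (fun k : ℕ => 2 - (k : K) ^ 2 * s) (Finset.Icc 1 r : Finset ℕ) := by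
    intro k hk l hl hkl
    simp only [Finset.coe_Icc, Set.mem_Icc] at hk hl
    have h1 : ((k : K) - l) * ((k : K) + l) = 0 := by
      have h2 : 2 - (k : K) ^ 2 * s = 2 - (l : K) ^ 2 * s := hkl
      have h3 : s * (((k : K) - l) * ((k : K) + l)) = 0 := by linear_combination (-1 : K) * h2
      exact (mul_eq_zero.1 h3).resolve_left hs
    rcases mul_eq_zero.1 h1 with h2 | h2
    · have h3 : (k : K) = l := sub_eq_zero.1 h2
      have h4 := (CharP.natCast_eq_natCast K p).1 h3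
      exact Nat.ModEq.eq_of_lt_of_lt h4 (by omega) (by omega)
    · have h3 : ((k + l : ℕ) : K) = 0 := by push_cast; exact h2
      have h4 := Nat.le_of_dvd (by omega) ((CharP.cast_eq_zero_iff K p _).1 h3)
      omega
  have h1 : ((Finset.Icc 1 r).image fun k : ℕ => 2 - (k : K) ^ 2 * s) ⊆ P.roots.toFinset := by
    intro x hx
    obtain ⟨k, hk, rfl⟩ := Finset.mem_image.1 hx
    rw [Multiset.mem_toFinset, mem_roots hP]
    exact h k hk
  have h2 := Finset.card_le_card h1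
  rw [Finset.card_image_of_injOn hinj, Nat.card_Icc] at h2
  have h3 := (Multiset.toFinset_card_le P.roots).trans (card_roots' P)
  omega

end

theorem bez_6_13_1_2 {K : Type*} [Field K] (hp : (13 : K) = 0) {s : K} (h1 : F6 (2 - 1 * s) = 0) (h2 : F6 (2 - 4 * s) = 0) :
    (-6) + (1) * s = 0 := by
  unfold F6 at h1 h2
  linear_combination ((-5) + (5) * s + (-4) * s ^ 2 + (2) * s ^ 3 + (-3) * s ^ 4 + (-1) * s ^ 5 + (-1) * s ^ 6 + (1) * s ^ 7 + (5) * s ^ 8 + (-2) * s ^ 9) * h1 + ((1) + (-1) * s + (-4) * s ^ 2 + (2) * s ^ 3 + (-5) * s ^ 4 + (-5) * s ^ 5 + (6) * s ^ 6 + (6) * s ^ 7 + (4) * s ^ 8 + (-5) * s ^ 9) * h2 + ((18) + (-73) * s + (-2804) * s ^ 2 + (42109) * s ^ 3 + (-290257) * s ^ 4 + (1170005) * s ^ 5 + (-2761935) * s ^ 6 + (2807247) * s ^ 7 + (3968275) * s ^ 8 + (-19785797) * s ^ 9 + (34993943) * s ^ 10 + (-32344025) * s ^ 11 + (7120478) * s ^ 12 + (21873910) * s ^ 13 + (-33448089) * s ^ 14 + (32424264) *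 s ^ 15 + (-35377882) * s ^ 16 + (37496932) * s ^ 17 + (-26436255) * s ^ 18 + (10163125) * s ^ 19 + (-1613194) * s ^ 20) * hp

theorem bez_6_17_1_4 {K : Type*} [Field K] (hp : (17 : K) = 0) {s : K} (h1 : F6 (2 - 1 * s) = 0) (h2 : F6 (2 - 16 * s) = 0) :
    (1 : K) = 0 := by
  unfold F6 at h1 h2
  linear_combination ((1) + (-6) * s + (4) * s ^ 2 + (-8) * s ^ 3 + (2) * s ^ 4 + (-4) * s ^ 5 + (-5) * s ^ 7 + (6) * s ^ 8 + (-5) * s ^ 9 + (-1) * s ^ 10) * h1 + ((1) + (6) * s + (4) * s ^ 2 + (8) * s ^ 3 + (2) * s ^ 4 + (4) * s ^ 5 + (5) * s ^ 7 + (6) * s ^ 8 + (5) * s ^ 9 + (-1) * s ^ 10) * h2 + ((-7) + (710) * s + (-48002) * s ^ 2 + (1836145) * s ^ 3 + (-40954340) * s ^ 4 + (543906879) * s ^ 5 + (-4089550618) * s ^ 6 + (12170841220) * s ^ 7 + (58346771904) * s ^ 8 + (-719707125785) * s ^ 9 + (3016856554217) * s ^ 10 + (-6340969273647) * s ^ 11 + (7013236006096) * s ^ 12 + (-6748539955895) * s ^ 13 + (9111636664777) *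 s ^ 14 + (-4750479254203) * s ^ 15 + (6974557125543) * s ^ 16 + (-3523104827568) * s ^ 17 + (1194000908286) * s ^ 18 + (-1758410140015) * s ^ 19 + (6597069766657) * s ^ 20 + (-1034834473201) * s ^ 21) * hp

theorem bez_6_19_1_2 {K : Type*} [Field K] (hp : (19 : K) = 0) {s : K} (h1 : F6 (2 - 1 * s) = 0) (h2 : F6 (2 - 4 * s) = 0) :
    (3) + (1) * s = 0 := by
  unfold F6 at h1 h2
  linear_combination ((7) + (-1) * s + (4) * s ^ 2 + (8) * s ^ 3 + (7) * s ^ 4 + (-1) * s ^ 5 + (-4) * s ^ 6 + (-5) * s ^ 8 + (-1) * s ^ 9) * h1 + ((-6) + (6) * s + (-5) * s ^ 2 + (-8) * s ^ 3 + (7) * s ^ 4 + (-1) * s ^ 5 + (6) * s ^ 6 + (-7) * s ^ 7 + (7) * s ^ 8 + (6) * s ^ 9) * h2 + ((-3) + (-651) * s + (16892) * s ^ 2 + (-194005) * s ^ 3 + (1310595) * s ^ 4 + (-5737357) * s ^ 5 + (17009755) * s ^ 6 + (-34642347) * s ^ 7 + (47249003) * s ^ 8 + (-37315912) * s ^ 9 + (1114964) * s ^ 10 + (40986232) * s ^ 11 + (-65528936) * s ^ 12 + (71682826)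 * s ^ 13 + (-70691500) * s ^ 14 + (60571893) * s ^ 15 + (-35075459) * s ^ 16 + (6236273) * s ^ 17 + (7422809) * s ^ 18 + (-5739573) * s ^ 19 + (1324517) * s ^ 20) * hp

theorem bez_6_23_1_2 {K : Type*} [Field K] (hp : (23 : K) = 0) {s : K} (h1 : F6 (2 - 1 * s) = 0) (h2 : F6 (2 - 4 * s) = 0) :
    (5) + (1) * s = 0 := by
  unfold F6 at h1 h2
  linear_combination ((1) + (1) * s + (5) * s ^ 2 + (-3) * s ^ 3 + (-8) * s ^ 4 + (-4) * s ^ 5 + (-4) * s ^ 6 + (11) * s ^ 7 + (10) * s ^ 8 + (-11) * s ^ 9) * h1 + ((1) + (-2) * s + (-4) * s ^ 2 + (-11) * s ^ 3 + (-2) * s ^ 4 + (-6) * s ^ 5 + (2) * s ^ 7 + (4) * s ^ 8 + (11) * s ^ 9) * h2 + ((-5) + (157) * s + (-2748) * s ^ 2 + (29419) * s ^ 3 + (-197047) * s ^ 4 + (857480) * s ^ 5 + (-2520074) * s ^ 6 + (5314145) * s ^ 7 + (-9141065) * s ^ 8 + (15186091) * s ^ 9 + (-24472978) * s ^ 10 + (32689054) * s ^ 11 + (-32475272) * s ^ 12 + (22810957) * s ^ 13 + (-8434498) * s ^ 14 +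 (-7439210) * s ^ 15 + (21967913) * s ^ 16 + (-28681338) * s ^ 17 + (22806418) * s ^ 18 + (-10303388) * s ^ 19 + (2005971) * s ^ 20) * hp

theorem bez_4_11_1_3 {K : Type*} [Field K] (hp : (11 : K) = 0) {s : K} (h1 : F4 (2 - 1 * s) = 0) (h2 : F4 (2 - 9 * s) = 0) :
    (1 : K) = 0 := by
  unfold F4 at h1 h2
  linear_combination ((1) + (3) * s + (1) * s ^ 2 + (-1) * s ^ 3 + (4) * s ^ 4) * h1 + ((-1) * s + (2) * s ^ 2 + (-5) * s ^ 3 + (-4) * s ^ 4) * h2 + ((-1) + (2) * s + (-34) * s ^ 2 + (529) * s ^ 3 + (-3554) * s ^ 4 + (13024) * s ^ 5 + (-27758) * s ^ 6 + (30765) * s ^ 7 + (-2986) * s ^ 8 + (-21472) * s ^ 9) * hp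

theorem bez_3_7_1_2 {K : Type*} [Field K] (hp : (7 : K) = 0) {s : K} (h1 : F3 (2 - 1 * s) = 0) (h2 : F3 (2 - 4 * s) = 0) :
    (-2) + (1) * s = 0 := by
  unfold F3 at h1 h2
  linear_combination ((1) + (2) * s) * h1 + ((1) + (-2) * s) * h2 + ((-2) + (8) * s + (-24) * s ^ 2 + (35) * s ^ 3 + (-18) * s ^ 4) * hp

/-! ### the three theorems -/

section

open Polynomial

theorem large6 {K : Type*} [Field K] {p : ℕ} [CharP K p] (hp : 24 < p) {s : K} (hs : s ≠ 0)
    (h : ∀ k ∈ Finset.Icc 1 12, F6 (2 - ((k : ℕ) : K) ^ 2 * s) = 0) : False := by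
  have hd : (X ^ 11 - C 9 * X ^ 9 + C 30 * X ^ 7 - C 45 * X ^ 5 + C 29 * X ^ 3 - C 6 * X : K[X]).natDegree = 11 := by
    compute_degree!
  refine false_of_roots (p := p) hs (X ^ 11 - C 9 * X ^ 9 + C 30 * X ^ 7 - C 45 * X ^ 5 + C 29 * X ^ 3 - C 6 * X)
    (fun h0 => ?_) (r := 12) (by rw [hd]; norm_num) (by omega) fun k hk => ?_
  · rw [h0, natDegree_zero] at hd
    norm_num at hd
  · have h1 := h k hk
    unfold F6 at h1
    simp only [eval_sub, eval_add, eval_mul, eval_pow, eval_X, eval_C]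
    linear_combination h1

theorem large4 {K : Type*} [Field K] {p : ℕ} [CharP K p] (hp : 12 < p) {s : K} (hs : s ≠ 0)
    (h : ∀ k ∈ Finset.Icc 1 6, F4 (2 - ((k : ℕ) : K) ^ 2 * s) = 0) : False := by
  have hd : (X ^ 5 - C 3 * X ^ 3 + C 2 * X : K[X]).natDegree = 5 := by
    compute_degree!
  refine false_of_roots (p := p) hs (X ^ 5 - C 3 * X ^ 3 + C 2 * X)
    (fun h0 => ?_) (r := 6) (by rw [hd]; norm_num) (by omega) fun k hk => ?_
  · rw [h0, natDegree_zero] at hd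
    norm_num at hd
  · have h1 := h k hk
    unfold F4 at h1
    simp only [eval_sub, eval_add, eval_mul, eval_pow, eval_X, eval_C]
    linear_combination h1

theorem large3 {K : Type*} [Field K] {p : ℕ} [CharP K p] (hp : 8 < p) {s : K} (hs : s ≠ 0)
    (h : ∀ k ∈ Finset.Icc 1 4, F3 (2 - ((k : ℕ) : K) ^ 2 * s) = 0) : False := by
  have hd : (X ^ 3 - X : K[X]).natDegree = 3 := by
    compute_degree!
  refine false_of_roots (p := p) hs (X ^ 3 - X)
    (fun h0 => ?_) (r := 4) (by rw [hd]; norm_num) (by omega) fun k hk => ?_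
  · rw [h0, natDegree_zero] at hd
    norm_num at hd
  · have h1 := h k hk
    unfold F3 at h1
    simp only [eval_sub, eval_add, eval_mul, eval_pow, eval_X, eval_C]
    linear_combination h1

end

section

variable {G : Type*} [Group G] {p : ℕ} {A : Subgroup G} {t : G}

theorem prime_cases (hp : p.Prime) (h : 13 ≤ p) (h2 : p ≤ 24) : p = 13 ∨ p = 17 ∨ p = 19 ∨ p = 23 := by
  interval_cases p <;> first | (exfalso; revert hp; norm_num; done) | simp

/-- **six-transpositions, `p ≥ 13`** -/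
theorem no_six (hp : p.Prime) (hp13 : 13 ≤ p) (hA : Pr p A) (ht : t * t = 1)
    (hN : ∀ g : G, ∃ n : ℕ, 0 < n ∧ n ≤ 6 ∧ (t * (g * t * g⁻¹)) ^ n = 1) : A ≤ centralizer ({t} : Set G) := by
  by_contra hc
  obtain ⟨K, _, _, s, hs, h⟩ := exists_s hp (by omega) (by omega) hA ht hN hc
  have hF : ∀ k : ℕ, ¬ p ∣ k → F6 (2 - (k : K) ^ 2 * s) = 0 := by
    intro k hk
    obtain ⟨n, h0, hn, h1⟩ := h k hk
    exact F6_of h0 hn h1
  rcases Nat.lt_or_ge 24 p with h24 | h24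
  · refine large6 (p := p) h24 hs fun k hk => hF k fun hd => ?_
    rw [Finset.mem_Icc] at hk
    have := Nat.le_of_dvd (by omega) hd
    omega
  have hpK : (p : K) = 0 := CharP.cast_eq_zero K p
  have hF1 := hF 1 (fun hd => by have := Nat.le_of_dvd (by norm_num) hd; omega)
  have hF2 := hF 2 (fun hd => by have := Nat.le_of_dvd (by norm_num) hd; omega)
  have hF3 := hF 3 (fun hd => by have := Nat.le_of_dvd (by norm_num) hd; omega)
  have hF4 := hF 4 (fun hd => by have := Nat.le_of_dvd (by norm_num) hd; omega)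
  have e1 : 2 - ((1 : ℕ) : K) ^ 2 * s = 2 - 1 * s := by push_cast; ring
  have e2 : 2 - ((2 : ℕ) : K) ^ 2 * s = 2 - 4 * s := by push_cast; ring
  have e3 : 2 - ((3 : ℕ) : K) ^ 2 * s = 2 - 9 * s := by push_cast; ring
  have e4 : 2 - ((4 : ℕ) : K) ^ 2 * s = 2 - 16 * s := by push_cast; ring
  rw [e1] at hF1; rw [e2] at hF2; rw [e3] at hF3; rw [e4] at hF4
  have key : ∀ m : ℕ, ((m : ℕ) : K) = 0 → ¬ p ∣ m → False := fun m hm hd => hd ((CharP.cast_eq_zero_iff K p m).1 hm)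
  rcases prime_cases hp hp13 h24 with rfl | rfl | rfl | rfl
  · have h1 : (13 : K) = 0 := by exact_mod_cast hpK
    have h2 := bez_6_13_1_2 h1 hF1 hF2
    have h3 : s = 6 := by linear_combination h2
    rw [h3] at hF4
    unfold F6 at hF4
    have h4 : ((5 : ℕ) : K) = 0 := by
      push_cast
      linear_combination hF4 + (389063620336503807725) * h1
    exact key 5 h4 (by norm_num)
  · have h1 : (17 : K) = 0 := by exact_mod_cast hpK
    exact one_ne_zero (bez_6_17_1_4 h1 hF1 hF4)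
  · have h1 : (19 : K) = 0 := by exact_mod_cast hpK
    have h2 := bez_6_19_1_2 h1 hF1 hF2
    have h3 : s = -3 := by linear_combination h2
    rw [h3] at hF3
    unfold F6 at hF3
    have h4 : ((18 : ℕ) : K) = 0 := by
      push_cast
      linear_combination hF3 + (-635287475048298) * h1
    exact key 18 h4 (by norm_num)
  · have h1 : (23 : K) = 0 := by exact_mod_cast hpK
    have h2 := bez_6_23_1_2 h1 hF1 hF2
    have h3 : s = -5 := by linear_combination h2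
    rw [h3] at hF4
    unfold F6 at hF4
    have h4 : ((12 : ℕ) : K) = 0 := by
      push_cast
      linear_combination hF4 + (-48937653421338443376) * h1
    exact key 12 h4 (by norm_num)

/-- **four-transpositions, `p ≥ 11`** -/
theorem no_four (hp : p.Prime) (hp11 : 11 ≤ p) (hA : Pr p A) (ht : t * t = 1)
    (hN : ∀ g : G, ∃ n : ℕ, 0 < n ∧ n ≤ 4 ∧ (t * (g * t * g⁻¹)) ^ n = 1) : A ≤ centralizer ({t} : Set G) := by
  by_contra hc
  obtain ⟨K, _, _, s, hs, h⟩ := exists_s hp (by omega) (by omega) hA ht hN hc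
  have hF : ∀ k : ℕ, ¬ p ∣ k → F4 (2 - (k : K) ^ 2 * s) = 0 := by
    intro k hk
    obtain ⟨n, h0, hn, h1⟩ := h k hk
    exact F4_of h0 hn h1
  rcases Nat.lt_or_ge 12 p with h12 | h12
  · refine large4 (p := p) h12 hs fun k hk => hF k fun hd => ?_
    rw [Finset.mem_Icc] at hk
    have := Nat.le_of_dvd (by omega) hd
    omega
  have hpK : (p : K) = 0 := CharP.cast_eq_zero K p
  have hF1 := hF 1 (fun hd => by have := Nat.le_of_dvd (by norm_num) hd; omega)
  have hF3 := hF 3 (fun hd => by have := Nat.le_of_dvd (by norm_num) hd; omega)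
  have e1 : 2 - ((1 : ℕ) : K) ^ 2 * s = 2 - 1 * s := by push_cast; ring
  have e3 : 2 - ((3 : ℕ) : K) ^ 2 * s = 2 - 9 * s := by push_cast; ring
  rw [e1] at hF1; rw [e3] at hF3
  obtain rfl : p = 11 := by
    interval_cases p
    · rfl
    · exact absurd hp (by norm_num)
  have h1 : (11 : K) = 0 := by exact_mod_cast hpK
  exact one_ne_zero (bez_4_11_1_3 h1 hF1 hF3)

/-- **three-transpositions, `p ≥ 7`** -/
theorem no_three (hp : p.Prime) (hp7 : 7 ≤ p) (hA : Pr p A) (ht : t * t = 1)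
    (hN : ∀ g : G, ∃ n : ℕ, 0 < n ∧ n ≤ 3 ∧ (t * (g * t * g⁻¹)) ^ n = 1) : A ≤ centralizer ({t} : Set G) := by
  by_contra hc
  obtain ⟨K, _, _, s, hs, h⟩ := exists_s hp (by omega) (by omega) hA ht hN hc
  have hF : ∀ k : ℕ, ¬ p ∣ k → F3 (2 - (k : K) ^ 2 * s) = 0 := by
    intro k hk
    obtain ⟨n, h0, hn, h1⟩ := h k hk
    exact F3_of h0 hn h1
  rcases Nat.lt_or_ge 8 p with h12 | h12
  · refine large3 (p := p) h12 hs fun k hk => hF k fun hd => ?_
    rw [Finset.mem_Icc] at hk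
    have := Nat.le_of_dvd (by omega) hd
    omega
  have hpK : (p : K) = 0 := CharP.cast_eq_zero K p
  have hF1 := hF 1 (fun hd => by have := Nat.le_of_dvd (by norm_num) hd; omega)
  have hF2 := hF 2 (fun hd => by have := Nat.le_of_dvd (by norm_num) hd; omega)
  have hF3 := hF 3 (fun hd => by have := Nat.le_of_dvd (by norm_num) hd; omega)
  have e1 : 2 - ((1 : ℕ) : K) ^ 2 * s = 2 - 1 * s := by push_cast; ring
  have e2 : 2 - ((2 : ℕ) : K) ^ 2 * s = 2 - 4 * s := by push_cast; ring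
  have e3 : 2 - ((3 : ℕ) : K) ^ 2 * s = 2 - 9 * s := by push_cast; ring
  rw [e1] at hF1; rw [e2] at hF2; rw [e3] at hF3
  obtain rfl : p = 7 := by
    interval_cases p
    · rfl
    · exact absurd hp (by norm_num)
  have h1 : (7 : K) = 0 := by exact_mod_cast hpK
  have h2 := bez_3_7_1_2 h1 hF1 hF2
  have h3 : s = 2 := by linear_combination h2
  rw [h3] at hF3
  unfold F3 at hF3
  have h4 : ((1 : ℕ) : K) = 0 := by
    push_cast
    linear_combination hF3 + (583) * h1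
  exact absurd ((CharP.cast_eq_zero_iff K 7 1).1 h4) (by norm_num)

end

end Cfsg.Agent.H339.Tor
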